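import Mathlib
import Cfsg.Prelude.Def_Characters
import Cfsg.Agent.H4.Chars

set_option autoImplicit false

open Matrix

namespace Cfsg.Agent.H99.AltSq

/-- The index set of the second compound: pairs `i < j`. -/
abbrev Pr (n : ℕ) : Type := {p : Fin n × Fin n // p.1 < p.2}

/-- Summing a function of two indices vanishing on the diagonal over unordered pairs. -/
theorem sum_offdiag {n : ℕ} (G : Fin n → Fin n → ℂ) (h0 : ∀ a, G a a = 0) :
    ∑ a, ∑ b, G a b = ∑ r : Pr n, (G r.1.1 r.1.2 + G r.1.2 r.1.1) := by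
  classical
  have h1 : ∀ a b, G a b = (if a < b then G a b else 0) + (if b < a then G a b else 0) := by
    intro a b
    rcases lt_trichotomy a b with h | h | h
    · rw [if_pos h, if_neg (not_lt.mpr h.le), add_zero]
    · subst h
      rw [if_neg (lt_irrefl a), h0, add_zero]
    · rw [if_neg (not_lt.mpr h.le), if_pos h, zero_add]
  have h2 : ∑ a, ∑ b, G a b
      = ∑ a, ∑ b, (if a < b then G a b else 0) + ∑ a, ∑ b, (if b < a then G a b else 0) := by
    rw [← Finset.sum_add_distrib]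
    apply Finset.sum_congr rfl
    intro a _
    rw [← Finset.sum_add_distrib]
    apply Finset.sum_congr rfl
    intro b _
    exact h1 a b
  have h3 : ∑ a, ∑ b, (if b < a then G a b else 0) = ∑ a, ∑ b, (if a < b then G b a else 0) :=
    Finset.sum_comm
  have h4 : ∑ a, ∑ b, ((if a < b then G a b else 0) + (if a < b then G b a else 0))
      = ∑ p : Fin n × Fin n, (if p.1 < p.2 then G p.1 p.2 + G p.2 p.1 else 0) := by
    rw [← Fintype.sum_prod_type' (fun a b => (if a < b then G a b else 0)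
      + (if a < b then G b a else 0))]
    apply Finset.sum_congr rfl
    intro p _
    by_cases h : p.1 < p.2
    · rw [if_pos h, if_pos h, if_pos h]
    · rw [if_neg h, if_neg h, if_neg h, add_zero]
  rw [h2, h3, ← Finset.sum_add_distrib]
  have h5 : ∑ a, (∑ b, (if a < b then G a b else 0) + ∑ b, (if a < b then G b a else 0))
      = ∑ a, ∑ b, ((if a < b then G a b else 0) + (if a < b then G b a else 0)) := by
    apply Finset.sum_congr rfl
    intro a _
    rw [Finset.sum_add_distrib]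
  rw [h5, h4, ← Finset.sum_filter]
  exact Finset.sum_subtype (Finset.univ.filter (fun p : Fin n × Fin n => p.1 < p.2))
    (fun x => by simp) (fun p => G p.1 p.2 + G p.2 p.1)

/-- The second compound matrix. -/
def comp2 {n : ℕ} (A : Matrix (Fin n) (Fin n) ℂ) : Matrix (Pr n) (Pr n) ℂ :=
  fun p q => A p.1.1 q.1.1 * A p.1.2 q.1.2 - A p.1.1 q.1.2 * A p.1.2 q.1.1

theorem comp2_mul {n : ℕ} (A B : Matrix (Fin n) (Fin n) ℂ) :
    comp2 (A * B) = comp2 A * comp2 B := by
  ext p q
  rw [Matrix.mul_apply]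
  show (A * B) p.1.1 q.1.1 * (A * B) p.1.2 q.1.2 - (A * B) p.1.1 q.1.2 * (A * B) p.1.2 q.1.1
    = ∑ r : Pr n, (A p.1.1 r.1.1 * A p.1.2 r.1.2 - A p.1.1 r.1.2 * A p.1.2 r.1.1)
        * (B r.1.1 q.1.1 * B r.1.2 q.1.2 - B r.1.1 q.1.2 * B r.1.2 q.1.1)
  have h := sum_offdiag (fun a b => A p.1.1 a * A p.1.2 b
    * (B a q.1.1 * B b q.1.2 - B a q.1.2 * B b q.1.1)) (fun a => by ring)
  have e1 : (A * B) p.1.1 q.1.1 * (A * B) p.1.2 q.1.2 - (A * B) p.1.1 q.1.2 * (A * B) p.1.2 q.1.1
      = ∑ a, ∑ b, A p.1.1 a * A p.1.2 b * (B a q.1.1 * B b q.1.2 - B a q.1.2 * B b q.1.1) := by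
    rw [Matrix.mul_apply, Matrix.mul_apply, Matrix.mul_apply, Matrix.mul_apply,
      Finset.sum_mul_sum, Finset.sum_mul_sum, ← Finset.sum_sub_distrib]
    apply Finset.sum_congr rfl
    intro a _
    rw [← Finset.sum_sub_distrib]
    apply Finset.sum_congr rfl
    intro b _
    ring
  rw [e1, h]
  apply Finset.sum_congr rfl
  intro r _
  ring

theorem comp2_one {n : ℕ} : comp2 (1 : Matrix (Fin n) (Fin n) ℂ) = 1 := by
  ext p q
  show (1 : Matrix (Fin n) (Fin n) ℂ) p.1.1 q.1.1 * (1 : Matrix (Fin n) (Fin n) ℂ) p.1.2 q.1.2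
    - (1 : Matrix (Fin n) (Fin n) ℂ) p.1.1 q.1.2 * (1 : Matrix (Fin n) (Fin n) ℂ) p.1.2 q.1.1
    = (1 : Matrix (Pr n) (Pr n) ℂ) p q
  have hp := p.2
  have hq := q.2
  by_cases hpq : p = q
  · subst hpq
    rw [Matrix.one_apply_eq, Matrix.one_apply_eq, Matrix.one_apply_eq,
      Matrix.one_apply_ne hp.ne]
    ring
  · rw [Matrix.one_apply_ne hpq]
    by_cases h1 : p.1.1 = q.1.1
    · have h2 : p.1.2 ≠ q.1.2 := by
        intro h2
        exact hpq (Subtype.ext (Prod.ext h1 h2))
      have h3 : p.1.1 ≠ q.1.2 := by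
        rw [h1]
        exact hq.ne
      rw [Matrix.one_apply_ne h2, Matrix.one_apply_ne h3]
      ring
    · have h3 : ¬ (p.1.1 = q.1.2 ∧ p.1.2 = q.1.1) := by
        rintro ⟨h4, h5⟩
        have h6 : q.1.2 < q.1.1 := by rw [← h4, ← h5]; exact hp
        exact lt_asymm hq h6
      rw [Matrix.one_apply_ne h1]
      by_cases h4 : p.1.1 = q.1.2
      · have h5 : p.1.2 ≠ q.1.1 := fun h5 => h3 ⟨h4, h5⟩
        rw [Matrix.one_apply_ne h5]
        ring
      · rw [Matrix.one_apply_ne h4]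
        ring

theorem trace_comp2 {n : ℕ} (A : Matrix (Fin n) (Fin n) ℂ) :
    (comp2 A).trace = (A.trace ^ 2 - (A * A).trace) / 2 := by
  have h := sum_offdiag (fun a b => A a a * A b b - A a b * A b a) (fun a => by ring)
  have e1 : A.trace ^ 2 - (A * A).trace = ∑ a, ∑ b, (A a a * A b b - A a b * A b a) := by
    rw [Matrix.trace, Matrix.trace, pow_two, Finset.sum_mul_sum]
    simp only [Matrix.diag_apply, Matrix.mul_apply]
    rw [← Finset.sum_sub_distrib]
    apply Finset.sum_congr rfl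
    intro a _
    rw [← Finset.sum_sub_distrib]
  rw [e1, h, Matrix.trace]
  rw [Finset.sum_div]
  apply Finset.sum_congr rfl
  intro r _
  show A r.1.1 r.1.1 * A r.1.2 r.1.2 - A r.1.1 r.1.2 * A r.1.2 r.1.1 = _
  ring

theorem trace_toLin'_eq {ι : Type*} [Fintype ι] [DecidableEq ι] (M : Matrix ι ι ℂ) :
    LinearMap.trace ℂ (ι → ℂ) (Matrix.toLin' M) = M.trace := by
  rw [LinearMap.trace_eq_matrix_trace ℂ (Pi.basisFun ℂ ι), LinearMap.toMatrix_eq_toMatrix',
    LinearMap.toMatrix'_toLin']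

/-- The exterior square of a character is a character. -/
theorem altSq_isCharacter {G : Type*} [Group G] (χ : G → ℂ) (hχ : IsCharacter G χ) :
    IsCharacter G (fun g => (χ g ^ 2 - χ (g * g)) / 2) := by
  classical
  obtain ⟨n, ρ, rfl⟩ := hχ
  obtain ⟨A, hA⟩ : ∃ A : G → Matrix (Fin n) (Fin n) ℂ, ∀ g, A g = LinearMap.toMatrix' (ρ g) :=
    ⟨_, fun g => rfl⟩
  have hA1 : A 1 = 1 := by rw [hA, map_one, LinearMap.toMatrix'_one]
  have hAmul : ∀ g h, A (g * h) = A g * A h := by
    intro g h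
    rw [hA, hA, hA, map_mul, LinearMap.toMatrix'_mul]
  have hchar : ∀ g, ρ.character g = (A g).trace := by
    intro g
    rw [hA, Representation.character, LinearMap.trace_eq_matrix_trace ℂ (Pi.basisFun ℂ (Fin n)),
      LinearMap.toMatrix_eq_toMatrix']
  let σ : Representation ℂ G (Pr n → ℂ) :=
    { toFun := fun g => Matrix.toLin' (comp2 (A g))
      map_one' := by
        rw [hA1, comp2_one, Matrix.toLin'_one]
        rfl
      map_mul' := by
        intro g h
        rw [hAmul, comp2_mul, Matrix.toLin'_mul]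
        rfl }
  have hσ : σ.character = fun g => (ρ.character g ^ 2 - ρ.character (g * g)) / 2 := by
    funext g
    show LinearMap.trace ℂ (Pr n → ℂ) (Matrix.toLin' (comp2 (A g))) = _
    rw [trace_toLin'_eq, trace_comp2, hchar, hchar, hAmul]
  rw [← hσ]
  exact Cfsg.Agent.H4.isCharacter_of_rep σ

end Cfsg.Agent.H99.AltSq
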