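import Mathlib
import Cfsg.Agent.H45.SpTwoGen

set_option autoImplicit false

open Matrix

namespace Cfsg.Agent.H99.StSp

variable {F : Type*} [Field F] {n : ℕ}

/-- `K` contains the lower Siegel element with block `R`. -/
def LowP (K : Subgroup (Matrix.symplecticGroup (Fin n) F)) (R : Matrix (Fin n) (Fin n) F) :
    Prop :=
  ∃ g ∈ K, g.1 = Matrix.fromBlocks 1 0 R 1

theorem LowP.zero (K : Subgroup (Matrix.symplecticGroup (Fin n) F)) : LowP K 0 :=
  ⟨1, K.one_mem, Matrix.fromBlocks_one.symm⟩

theorem LowP.add {K : Subgroup (Matrix.symplecticGroup (Fin n) F)}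
    {R R' : Matrix (Fin n) (Fin n) F} (h : LowP K R) (h' : LowP K R') : LowP K (R + R') := by
  obtain ⟨g, hg, hgm⟩ := h
  obtain ⟨g', hg', hgm'⟩ := h'
  refine ⟨g * g', K.mul_mem hg hg', ?_⟩
  show g.1 * g'.1 = _
  rw [hgm, hgm', Matrix.fromBlocks_multiply]
  simp

theorem LowP.sum {K : Subgroup (Matrix.symplecticGroup (Fin n) F)} {ι : Type*} (s : Finset ι)
    (f : ι → Matrix (Fin n) (Fin n) F) (h : ∀ i ∈ s, LowP K (f i)) : LowP K (∑ i ∈ s, f i) := by
  classical
  induction s using Finset.induction_on with
  | empty => rw [Finset.sum_empty]; exact LowP.zero K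
  | insert a s ha ih =>
    rw [Finset.sum_insert ha]
    exact LowP.add (h a (Finset.mem_insert_self a s))
      (ih (fun i hi => h i (Finset.mem_insert_of_mem hi)))

theorem LowP.conj {K : Subgroup (Matrix.symplecticGroup (Fin n) F)} {i j : Fin n} (hij : i ≠ j)
    (h : ∀ t : F, ∃ g ∈ K, g.1 = Matrix.fromBlocks (Matrix.transvection i j t) 0 0
      (Matrix.transvection j i (-t)))
    {R : Matrix (Fin n) (Fin n) F} (hR : LowP K R) (s : F) :
    LowP K (Matrix.transvection j i s * R * Matrix.transvection i j s) := by
  obtain ⟨g, hg, hgm⟩ := hR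
  obtain ⟨a, ha, ham⟩ := h (-s)
  obtain ⟨b, hb, hbm⟩ := h s
  refine ⟨a * g * b, K.mul_mem (K.mul_mem ha hg) hb, ?_⟩
  show a.1 * g.1 * b.1 = _
  rw [ham, hgm, hbm, Matrix.fromBlocks_multiply, Matrix.fromBlocks_multiply]
  have e1 : Matrix.transvection i j (-s) * Matrix.transvection i j s = (1 : Matrix (Fin n) (Fin n) F) := by
    rw [Matrix.transvection_mul_transvection_same i j hij, neg_add_cancel, Matrix.transvection_zero]
  have e2 : Matrix.transvection j i (- -s) * Matrix.transvection j i (-s)
      = (1 : Matrix (Fin n) (Fin n) F) := by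
    rw [Matrix.transvection_mul_transvection_same j i hij.symm, neg_neg, add_neg_cancel,
      Matrix.transvection_zero]
  simp only [Matrix.mul_one, Matrix.mul_zero, Matrix.zero_mul, add_zero, zero_add, e1, e2]
  rw [neg_neg]

theorem transvection_mulVec' (i j : Fin n) (s : F) (v : Fin n → F) :
    Matrix.transvection j i s *ᵥ v = v + (s * v i) • Pi.single j 1 := by
  rw [Matrix.transvection, Matrix.add_mulVec, Matrix.one_mulVec, Matrix.single_mulVec]
  congr 1
  ext k
  simp [Pi.single_apply, Function.update_apply]

theorem conj_rank_one (i j : Fin n) (s c : F) (v : Fin n → F) :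
    Matrix.transvection j i s * (c • vecMulVec v v) * Matrix.transvection i j s
      = c • vecMulVec (Matrix.transvection j i s *ᵥ v) (Matrix.transvection j i s *ᵥ v) := by
  have e : Matrix.transvection i j s = (Matrix.transvection j i s)ᵀ := by
    simp [Matrix.transvection]
  rw [Matrix.mul_smul, Matrix.smul_mul, Matrix.mul_vecMulVec, Matrix.vecMulVec_mul]
  conv_lhs => rw [e, Matrix.vecMul_transpose]

theorem single_eq_rank_one (i : Fin n) (c : F) :
    Matrix.single i i c = c • vecMulVec (Pi.single i (1 : F)) (Pi.single i (1 : F)) := by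
  ext k l
  simp only [Matrix.single_apply, Matrix.smul_apply, vecMulVec_apply, Pi.single_apply,
    smul_eq_mul]
  by_cases hk : k = i
  · by_cases hl : l = i
    · simp [hk, hl]
    · simp [hk, hl, Ne.symm hl]
  · simp [hk, Ne.symm hk]

/-- A subgroup of `Sp_{2(m+1)}(F)` containing the upper Siegel radical, the elementary unipotents
of the Levi factor and one long root group of the lower Siegel radical is everything. -/
theorem sp_gen {F : Type*} [Field F] [Fintype F] (m : ℕ)
    (K : Subgroup (Matrix.symplecticGroup (Fin (m+1)) F))
    (hS : ∀ S : Matrix (Fin (m+1)) (Fin (m+1)) F, Sᵀ = S →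
      ∃ g ∈ K, g.1 = Matrix.fromBlocks 1 S 0 1)
    (hup : ∀ i j : Fin (m+1), i < j → ∀ t : F,
      ∃ g ∈ K, g.1 = Matrix.fromBlocks (Matrix.transvection i j t) 0 0 (Matrix.transvection j i (-t)))
    (hlow : ∀ k : Fin m, ∀ t : F,
      ∃ g ∈ K, g.1 = Matrix.fromBlocks (Matrix.transvection k.succ k.castSucc t) 0 0
        (Matrix.transvection k.castSucc k.succ (-t)))
    (hlong : ∀ t : F,
      ∃ g ∈ K, g.1 = Matrix.fromBlocks 1 0 (Matrix.single (Fin.last m) (Fin.last m) t) 1) :
    K = ⊤ := by
  classical
  -- diagonal entries
  have hdiag : ∀ (i : Fin (m+1)) (c : F), LowP K (Matrix.single i i c) := by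
    intro i
    induction i using Fin.reverseInduction with
    | last => exact fun c => hlong c
    | cast k ih =>
      intro c
      have hne : k.succ ≠ k.castSucc := (Fin.castSucc_lt_succ (i := k)).ne'
      have h1 := ih c
      rw [single_eq_rank_one] at h1
      have h2 := LowP.conj hne (hlow k) h1 1
      rw [conj_rank_one, transvection_mulVec'] at h2
      have h3 := LowP.conj hne.symm (hup k.castSucc k.succ (Fin.castSucc_lt_succ (i := k))) h2 (-1)
      rw [conj_rank_one, transvection_mulVec'] at h3
      have e : (Pi.single k.succ (1 : F) + (1 * (Pi.single k.succ (1 : F) : Fin (m+1) → F) k.succ)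
            • Pi.single k.castSucc (1 : F) : Fin (m+1) → F)
          + (-1 * (Pi.single k.succ (1 : F) + (1 * (Pi.single k.succ (1 : F) : Fin (m+1) → F) k.succ)
            • Pi.single k.castSucc (1 : F) : Fin (m+1) → F) k.castSucc) • Pi.single k.succ (1 : F)
          = Pi.single k.castSucc (1 : F) := by
        ext l
        simp only [Pi.add_apply, Pi.smul_apply, Pi.single_apply, smul_eq_mul]
        by_cases h1 : l = k.succ
        · subst h1
          simp [hne, hne.symm]
        · by_cases h2 : l = k.castSucc
          · subst h2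
            simp [hne, hne.symm]
          · simp [h1, h2, hne, hne.symm]
      rw [e, ← single_eq_rank_one] at h3
      exact h3
  -- off-diagonal entries, `a > b`
  have hoff : ∀ (a b : Fin (m+1)), b < a → ∀ c : F,
      LowP K (Matrix.single a b c + Matrix.single b a c) := by
    intro a b hba c
    have h1 := hdiag b c
    rw [single_eq_rank_one] at h1
    have h2 := LowP.conj hba.ne (hup b a hba) h1 1
    rw [conj_rank_one, transvection_mulVec'] at h2
    have h3 := LowP.add (LowP.add h2 (hdiag b (-c))) (hdiag a (-c))
    have e : c • vecMulVec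
          (Pi.single b (1 : F) + (1 * (Pi.single b (1 : F) : Fin (m+1) → F) b) • Pi.single a (1 : F))
          (Pi.single b (1 : F) + (1 * (Pi.single b (1 : F) : Fin (m+1) → F) b) • Pi.single a (1 : F))
        + Matrix.single b b (-c) + Matrix.single a a (-c)
        = Matrix.single a b c + Matrix.single b a c := by
      ext k l
      simp only [Matrix.add_apply, Matrix.smul_apply, vecMulVec_apply, Pi.add_apply,
        Pi.smul_apply, Pi.single_apply, smul_eq_mul, Matrix.single_apply]
      have hab : a ≠ b := hba.ne'
      by_cases hka : k = a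
      · by_cases hla : l = a
        · subst hka; subst hla; simp [hab, hab.symm]
        · by_cases hlb : l = b
          · subst hka; subst hlb; simp [hab, hab.symm]
          · subst hka; simp [hla, hlb, hab, hab.symm, Ne.symm hla, Ne.symm hlb]
      · by_cases hkb : k = b
        · by_cases hla : l = a
          · subst hkb; subst hla; simp [hab, hab.symm]
          · by_cases hlb : l = b
            · subst hkb; subst hlb; simp [hab, hab.symm]
            · subst hkb; simp [hla, hlb, hab, hab.symm, Ne.symm hla, Ne.symm hlb]
        · simp [hka, hkb, Ne.symm hka, Ne.symm hkb]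
    rw [e] at h3
    exact h3
  have hpair : ∀ (i j : Fin (m+1)), i ≠ j → ∀ c : F,
      LowP K (Matrix.single i j c + Matrix.single j i c) := by
    intro i j hij c
    rcases lt_or_gt_of_ne hij with h | h
    · have e : Matrix.single i j c + Matrix.single j i c
          = Matrix.single j i c + Matrix.single i j c := add_comm _ _
      rw [e]
      exact hoff j i h c
    · exact hoff i j h c
  apply Cfsg.Agent.H45.sp_eq_top_of_upper_lower K hS
  intro R hR
  have h : R = Matrix.diagonal (fun i => R i i) +
      ∑ i, ∑ j, (Matrix.single i j (if i < j then R i j else 0)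
        + Matrix.single j i (if i < j then R i j else 0)) := by
    have h0 : R = Matrix.diagonal (fun i => R i i) +
        (Matrix.of (fun i j => if i < j then R i j else 0) +
          (Matrix.of (fun i j => if i < j then R i j else 0))ᵀ) := by
      ext k l
      simp only [Matrix.add_apply, Matrix.diagonal_apply, Matrix.of_apply, Matrix.transpose_apply]
      rcases lt_trichotomy k l with h | h | h
      · simp [h, h.ne, not_lt.mpr h.le]
      · subst h
        simp
      · have e : R l k = R k l := by
          conv_rhs => rw [← hR]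
          rfl
        simp [h, h.ne', not_lt.mpr h.le, e]
    have h1 : (Matrix.of (fun i j => if i < j then R i j else 0) +
          (Matrix.of (fun i j => if i < j then R i j else 0))ᵀ : Matrix (Fin (m+1)) (Fin (m+1)) F)
        = ∑ i, ∑ j, (Matrix.single i j (if i < j then R i j else 0)
          + Matrix.single j i (if i < j then R i j else 0)) := by
      conv_lhs => rw [Matrix.matrix_eq_sum_single
        (Matrix.of (fun i j => if i < j then R i j else 0) : Matrix (Fin (m+1)) (Fin (m+1)) F)]
      simp only [Matrix.transpose_sum, Matrix.transpose_single, ← Finset.sum_add_distrib,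
        Matrix.of_apply]
    rw [← h1]
    exact h0
  rw [h]
  refine LowP.add ?_ ?_
  · rw [← Matrix.sum_single_eq_diagonal]
    exact LowP.sum _ _ (fun i _ => hdiag i _)
  · refine LowP.sum _ _ (fun i _ => LowP.sum _ _ (fun j _ => ?_))
    by_cases hij : i = j
    · subst hij
      simp only [lt_self_iff_false, if_false, Matrix.single_zero, add_zero]
      exact LowP.zero K
    · exact hpair i j hij _

end Cfsg.Agent.H99.StSp
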