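import Mathlib
import Cfsg.Agent.H50.SpCard
import Cfsg.Agent.H50.AutPSLSylow

set_option autoImplicit false

open Matrix

namespace Cfsg.Agent.H99.StSp

/-- A `p`-subgroup of `Sp_{2m}(F)` (char `F = p`) containing the unitriangular Levi elements and the
upper Siegel radical has index prime to `p`. -/
theorem sp_sylow {F : Type*} [Field F] [Fintype F] (p : ℕ) [Fact p.Prime] [CharP F p] (m : ℕ)
    (U : Subgroup (Matrix.symplecticGroup (Fin m) F)) (hp : IsPGroup p U)
    (hD : ∀ A A' : Matrix (Fin m) (Fin m) F, Cfsg.Agent.H50.AutPSL.IsUT A → A * A' = 1 →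
      ∃ g ∈ U, g.1 = Matrix.fromBlocks A 0 0 A'ᵀ)
    (hS : ∀ S : Matrix (Fin m) (Fin m) F, Sᵀ = S → ∃ g ∈ U, g.1 = Matrix.fromBlocks 1 S 0 1) :
    ¬ p ∣ U.index := by
  classical
  have hpp : p.Prime := Fact.out
  obtain ⟨f, -, hf⟩ := FiniteField.card F p
  obtain ⟨Aof, hAof⟩ : ∃ Aof : Matrix (Fin m) (Fin m) F → Matrix (Fin m) (Fin m) F,
      ∀ X i j, Aof X i j = if i = j then 1 else if i < j then X i j else 0 :=
    ⟨fun X => Matrix.of fun i j => if i = j then 1 else if i < j then X i j else 0,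
      fun X i j => rfl⟩
  obtain ⟨Sof, hSof⟩ : ∃ Sof : Matrix (Fin m) (Fin m) F → Matrix (Fin m) (Fin m) F,
      ∀ X i j, Sof X i j = if j ≤ i then X i j else X j i :=
    ⟨fun X => Matrix.of fun i j => if j ≤ i then X i j else X j i, fun X i j => rfl⟩
  have hA : ∀ X, Cfsg.Agent.H50.AutPSL.IsUT (Aof X) := by
    intro X
    constructor
    · intro i j hji
      rw [hAof, if_neg hji.ne', if_neg (not_lt.mpr hji.le)]
    · intro i
      rw [hAof, if_pos rfl]
  have hAinv : ∀ X, Aof X * (Aof X)⁻¹ = 1 := by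
    intro X
    apply Matrix.mul_nonsing_inv
    rw [(hA X).det]
    exact isUnit_one
  have hSsym : ∀ X, (Sof X)ᵀ = Sof X := by
    intro X
    ext i j
    rw [Matrix.transpose_apply, hSof, hSof]
    rcases lt_trichotomy i j with h | h | h
    · rw [if_pos h.le, if_neg (not_le.mpr h)]
    · subst h; rfl
    · rw [if_neg (not_le.mpr h), if_pos h.le]
  choose gA hgA hgAm using fun X => hD (Aof X) (Aof X)⁻¹ (hA X) (hAinv X)
  choose gS hgS hgSm using fun X => hS (Sof X) (hSsym X)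
  have hinj : Function.Injective
      (fun X : Matrix (Fin m) (Fin m) F => (⟨gA X * gS X, U.mul_mem (hgA X) (hgS X)⟩ : U)) := by
    intro X Y hXY
    have h1 : (gA X).1 * (gS X).1 = (gA Y).1 * (gS Y).1 := by
      have h2 := congrArg (fun u : U => (u : Matrix.symplecticGroup (Fin m) F).1) hXY
      exact h2
    rw [hgAm, hgSm, hgAm, hgSm, Matrix.fromBlocks_multiply, Matrix.fromBlocks_multiply] at h1
    simp only [Matrix.mul_one, Matrix.mul_zero, Matrix.zero_mul, add_zero, zero_add] at h1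
    obtain ⟨hAeq, hASeq, -, -⟩ := Matrix.fromBlocks_inj.mp h1
    have hSeq : Sof X = Sof Y := by
      have h3 : (Aof X)⁻¹ * (Aof X * Sof X) = (Aof X)⁻¹ * (Aof Y * Sof Y) := by rw [hASeq]
      have hu : IsUnit (Aof X).det := by rw [(hA X).det]; exact isUnit_one
      rw [← hAeq, ← Matrix.mul_assoc, ← Matrix.mul_assoc, Matrix.nonsing_inv_mul _ hu,
        Matrix.one_mul, Matrix.one_mul] at h3
      exact h3
    ext i j
    by_cases hij : i < j
    · have h4 := congrFun (congrFun hAeq i) j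
      rw [hAof, hAof, if_neg hij.ne, if_neg hij.ne, if_pos hij, if_pos hij] at h4
      exact h4
    · have h4 := congrFun (congrFun hSeq i) j
      rw [hSof, hSof, if_pos (not_lt.mp hij), if_pos (not_lt.mp hij)] at h4
      exact h4
  have hcardM : Nat.card (Matrix (Fin m) (Fin m) F) = (p ^ (f : ℕ)) ^ (m * m) := by
    show Nat.card (Fin m → Fin m → F) = _
    rw [Nat.card_fun, Nat.card_fun, Nat.card_eq_fintype_card, Nat.card_eq_fintype_card,
      Fintype.card_fin, hf, ← pow_mul]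
  have hle : (p ^ (f : ℕ)) ^ (m * m) ≤ Nat.card U := by
    rw [← hcardM]
    exact Nat.card_le_card_of_injective _ hinj
  obtain ⟨k, hk⟩ := hp.exists_card_eq
  have hcard := Cfsg.Agent.H50.SpCard.card_sp (F := F) (q := p ^ (f : ℕ)) hf m
  have hidx := Subgroup.card_mul_index U
  rw [hk, hcard] at hidx
  rw [hk, ← pow_mul] at hle
  have hkle : (f : ℕ) * (m * m) ≤ k := (Nat.pow_le_pow_iff_right hpp.one_lt).mp hle
  have e1 : (p ^ (f : ℕ)) ^ (m ^ 2) = p ^ ((f : ℕ) * (m * m)) := by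
    rw [← pow_mul, pow_two]
  rw [e1] at hidx
  have e2 : p ^ k = p ^ ((f : ℕ) * (m * m)) * p ^ (k - (f : ℕ) * (m * m)) := by
    rw [← pow_add, Nat.add_sub_cancel' hkle]
  rw [e2, mul_assoc] at hidx
  have hidx2 := Nat.eq_of_mul_eq_mul_left (pow_pos hpp.pos _) hidx
  intro hdvd
  have h5 : p ∣ ∏ i ∈ Finset.range m, ((p ^ (f : ℕ)) ^ (2 * (i + 1)) - 1) := by
    rw [← hidx2]
    exact Dvd.dvd.mul_left hdvd _
  rw [Prime.dvd_finsetProd_iff hpp.prime] at h5
  obtain ⟨i, -, hi⟩ := h5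
  have h6 : p ∣ (p ^ (f : ℕ)) ^ (2 * (i + 1)) := by
    rw [← pow_mul]
    apply dvd_pow_self
    have : 0 < (f : ℕ) := f.pos
    positivity
  have h7 : 1 ≤ (p ^ (f : ℕ)) ^ (2 * (i + 1)) := Nat.one_le_pow _ _ (pow_pos hpp.pos _)
  have h8 : p ∣ 1 := by
    have h9 := (Nat.dvd_sub h6 hi)
    rwa [Nat.sub_sub_self h7] at h9
  exact hpp.one_lt.ne' (Nat.dvd_one.mp h8)

end Cfsg.Agent.H99.StSp
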